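import Cfsg.Agent.Transfer.Tate

/-! A normal complement to a Sylow normalizer from two normal subgroups. -/

set_option autoImplicit false

namespace CF.Pdg

open Cfsg Subgroup CF.Transfer

variable {G : Type*} [Group G] [Finite G] {p : ℕ} [Fact p.Prime]

theorem focal (P : Sylow p G) (K A : Subgroup G) [hKn : K.Normal]
    (hK : K ⊓ P ≤ ⁅(P : Subgroup G), (P : Subgroup G)⁆)
    (hD : ⁅(P : Subgroup G), (P : Subgroup G)⁆ ≤ K) (hPA : (P : Subgroup G) ≤ A)
    (hA : A ⊓ normalizer ((P : Subgroup G) : Set G) ≤ P) :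
    (P : Subgroup G) ⊓ ⁅A, A⁆ ≤ ⁅(P : Subgroup G), (P : Subgroup G)⁆ := by
  have hS := isSylowIn_of_le P hPA
  refine hS.inf_commutator_le fun x hx g hg hy => hK (mem_inf.2 ⟨?_, mul_mem (inv_mem hx) hy⟩)
  let π := QuotientGroup.mk' K
  have hπ : ∀ a, π a = 1 ↔ a ∈ K := fun a => QuotientGroup.eq_one_iff a
  have hc : ∀ a ∈ (P : Subgroup G), ∀ b ∈ (P : Subgroup G), π a * π b = π b * π a := by
    intro a ha b hb
    have := (hπ _).2 (hD (commutator_mem_commutator ha hb))
    rw [map_commutatorElement] at this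
    exact commutatorElement_eq_one_iff_mul_comm.1 this
  let C : Subgroup G := A ⊓ (centralizer {π (g * x * g⁻¹)}).comap π
  have h1 : (P : Subgroup G) ≤ C := fun a ha =>
    ⟨hPA ha, mem_centralizer_singleton_iff.2 (hc a ha _ hy)⟩
  have h2 : cj g (P : Subgroup G) ≤ C := by
    intro a ha
    obtain ⟨b, hb, rfl⟩ := mem_cj'.1 ha
    refine mem_inf.2 ⟨mul_mem (mul_mem hg (hPA hb)) (inv_mem hg),
      mem_comap.2 (mem_centralizer_singleton_iff.2 ?_)⟩
    have := hc b hb x hx
    simp only [map_mul, map_inv]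
    calc π g * π b * (π g)⁻¹ * (π g * π x * (π g)⁻¹) = π g * (π b * π x) * (π g)⁻¹ := by group
      _ = π g * π x * (π g)⁻¹ * (π g * π b * (π g)⁻¹) := by rw [this]; group
  obtain ⟨c, hcC, e⟩ := ((hS.cj_of_mem hg).of_le h2 inf_le_left).exists_cj_eq
    (hS.of_le h1 inf_le_left)
  rw [cj_cj] at e
  have hs : c * g ∈ (P : Subgroup G) := hA ⟨mul_mem hcC.1 hg, mem_normalizer_iff_cj.2 e⟩
  have e1 := hc _ hs x hx
  have e2 : π c * π (g * x * g⁻¹) = π (g * x * g⁻¹) * π c := mem_centralizer_singleton_iff.1 hcC.2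
  rw [← hπ, map_mul, map_inv, inv_mul_eq_one]
  have e3 : π c * π (g * x * g⁻¹) * (π c)⁻¹ = π x := by
    calc π c * π (g * x * g⁻¹) * (π c)⁻¹ = π (c * g) * π x * (π (c * g))⁻¹ := by
          simp only [map_mul, map_inv]; group
      _ = π x := by rw [e1]; group
  rw [← e3, e2]; group

theorem comp (P : Sylow p G) (K A : Subgroup G) [K.Normal] [A.Normal]
    (hK : K ⊓ P ≤ ⁅(P : Subgroup G), (P : Subgroup G)⁆)
    (hD : ⁅(P : Subgroup G), (P : Subgroup G)⁆ ≤ K) (hPA : (P : Subgroup G) ≤ A)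
    (hA : A ⊓ normalizer ((P : Subgroup G) : Set G) ≤ P) :
    ∃ L : Subgroup G, L.Normal ∧ L ⊓ normalizer ((P : Subgroup G) : Set G) = ⊥ ∧
      L ⊔ normalizer ((P : Subgroup G) : Set G) = ⊤ := by
  have hS := isSylowIn_of_le P hPA
  have h1 : HasNormalPComplement p A := by
    apply hasNPC_of_inf_commutator_le hS.toSylow
    have e : (hS.toSylow : Subgroup A) = (P : Subgroup G).subgroupOf A := rfl
    rw [← map_le_map_iff_of_injective A.subtype_injective, map_inf _ _ _ A.subtype_injective,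
      map_subtype_commutator, map_commutator, e, subgroupOf_map_subtype, inf_eq_left.2 hPA]
    exact focal P K A hK hD hPA hA
  have h2 := hS.hasNPC_iff.1 h1
  refine ⟨pRes p A, inferInstance, ?_, ?_⟩
  · rw [eq_bot_iff, ← h2]
    exact le_inf (le_trans (inf_le_inf_right _ (pRes_le A)) hA) inf_le_left
  · rw [eq_top_iff]
    intro h _
    obtain ⟨n, hn, y, hy, rfl⟩ := hS.frattini (h := h) (by rw [normalizer_eq_top]; trivial)
    obtain ⟨x, hx, s, hs, rfl⟩ := hS.exists_pRes_mul hn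
    exact mul_mem (mul_mem (mem_sup_left hx) (mem_sup_right (le_normalizer hs))) (mem_sup_right hy)

/-- A normal subgroup meeting the Sylow normalizer trivially has classes of size divisible by `p`. -/
theorem dvd_index (P : Sylow p G) (L : Subgroup G) [hL : L.Normal]
    (h : L ⊓ normalizer ((P : Subgroup G) : Set G) = ⊥) {x : G} (hx : x ∈ L) (h1 : x ≠ 1) :
    p ∣ (centralizer ({x} : Set G)).index := by
  by_contra hd
  obtain ⟨S, hS⟩ := exists_isSylowIn p (centralizer ({x} : Set G))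
  have hT : IsSylowIn p S ⊤ := hS.trans_of_not_dvd le_top (by rwa [relIndex_top_right])
  obtain ⟨g, -, e⟩ := hT.exists_cj_eq (isSylowIn_top P)
  have : g * x * g⁻¹ ∈ L ⊓ normalizer ((P : Subgroup G) : Set G) := by
    refine ⟨hL.conj_mem x hx g, centralizer_le_normalizer _ ?_⟩
    rw [← e]
    intro a ha
    obtain ⟨b, hb, rfl⟩ := mem_cj'.1 ha
    have := mem_centralizer_singleton_iff.1 (hS.le hb)
    calc g * b * g⁻¹ * (g * x * g⁻¹) = g * (b * x) * g⁻¹ := by group
      _ = g * x * g⁻¹ * (g * b * g⁻¹) := by rw [this]; group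
  rw [h, mem_bot] at this
  exact h1 (by simpa using this)

end CF.Pdg
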