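import Cfsg.Agent.Pdg.A
import Cfsg.Agent.Block.Ito

/-! Characters of degree prime to `p` and the Sylow normalizer. -/

set_option autoImplicit false

namespace CF.Pdg

open Cfsg Subgroup CF.Char CF.BlockB.Ord

variable {G : Type*} [Group G] {p : ℕ}

theorem exists_over [Fintype G] (H : Subgroup G) [Fintype H] (hp : p.Prime) (hH : ¬ p ∣ H.index)
    {θ : H → ℂ} (hθ : IsIrrCharacter H θ) (hd : ¬ p ∣ charDegree θ) :
    ∃ χ, IsIrrCharacter G χ ∧ ¬ p ∣ charDegree χ ∧ classInner (fun h : H => χ h) θ ≠ 0 := by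
  have e : charDegree (indFun H θ) = H.index * charDegree θ :=
    deg_of_eq (by rw [indFun_one, irr_deg_eq hθ]; push_cast; rfl)
  obtain ⟨χ, hχ, h1, h2⟩ := exists_constituent_not_dvd (char_indFun H (irr_isCharacter hθ)) (m := p)
    (by rw [e, hp.dvd_mul]; tauto)
  refine ⟨χ, hχ, h2, ?_⟩
  rwa [inner_indFun_left H θ (irr_isClassFunction hχ), Ne, inner_eq_zero_comm] at h1

theorem sum_deg_le [Fintype G] {χ : G → ℂ} (hχ : IsCharacter G χ) (S : Finset (IrrCharacter G))
    (hS : ∀ ψ ∈ S, classInner χ ψ ≠ 0) : ∑ ψ ∈ S, charDegree (ψ : G → ℂ) ≤ charDegree χ := by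
  choose n hn using fun ψ : IrrCharacter G => inner_char_eq_nat hχ (irr_isCharacter ψ.2)
  have e : charDegree χ = ∑ ψ : IrrCharacter G, n ψ * charDegree (ψ : G → ℂ) := by
    apply deg_of_eq
    rw [classFun_apply_eq_sum (char_isClassFunction hχ) 1]
    push_cast
    exact Finset.sum_congr rfl fun ψ _ => by rw [hn, irr_deg_eq ψ.2]
  rw [e]
  refine le_trans (Finset.sum_le_sum fun ψ h => ?_) (Finset.sum_le_sum_of_subset S.subset_univ)
  refine Nat.le_mul_of_pos_left _ (Nat.pos_of_ne_zero fun h0 => hS ψ h ?_)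
  rw [hn, h0, Nat.cast_zero]

theorem le_ker [Finite G] (hp : p.Prime) (L : Subgroup G) [hL : L.Normal]
    (h : ∀ x ∈ L, x ≠ 1 → p ∣ (centralizer ({x} : Set G)).index) {χ : G → ℂ}
    (hχ : IsIrrCharacter G χ) (hd : ¬ p ∣ charDegree χ) : L ≤ charKer χ := by
  classical
  have := Fintype.ofFinite G
  refine le_charKer_of_sum_ne_zero hχ L fun h0 => hd ?_
  have hp0 : (p : ℂ) ≠ 0 := by exact_mod_cast hp.ne_zero
  let S : Finset G := Finset.univ.filter fun x => x ∈ L ∧ x ≠ 1
  have e1 : χ 1 + ∑ x ∈ S, χ x = 0 := by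
    have e0 : S = (Finset.univ.filter (· ∈ L)).erase 1 := by
      ext x
      simp [S, and_comm]
    rw [← h0, ← Finset.sum_subtype (Finset.univ.filter (· ∈ L)) (by simp) χ, e0]
    exact Finset.add_sum_erase _ χ (by simp)
  have e2 : IsIntegral ℤ ((∑ x ∈ S, χ x) / p) := by
    rw [← Finset.sum_fiberwise S ConjClasses.mk, Finset.sum_div]
    refine IsIntegral.sum _ fun C _ => ?_
    rcases (S.filter fun x => ConjClasses.mk x = C).eq_empty_or_nonempty with he | ⟨y, hy⟩
    · rw [he, Finset.sum_empty, zero_div]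
      exact isIntegral_zero
    · simp only [S, Finset.mem_filter, Finset.mem_univ, true_and] at hy
      obtain ⟨⟨hy, hy1⟩, rfl⟩ := hy
      have e3 : (S.filter fun x => ConjClasses.mk x = ConjClasses.mk y) =
          Finset.univ.filter (IsConj y) := by
        ext x
        simp only [S, Finset.mem_filter, Finset.mem_univ, true_and, ConjClasses.mk_eq_mk_iff_isConj]
        refine ⟨fun h => h.2.symm, fun h => ⟨?_, h.symm⟩⟩
        obtain ⟨c, rfl⟩ := isConj_iff.1 h
        exact ⟨hL.conj_mem y hy c, by simpa using hy1⟩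
      have e4 := sum_indicator_mul (irr_isClassFunction hχ) y
      simp only [ite_mul, one_mul, zero_mul] at e4
      obtain ⟨k, hk⟩ := h y hy hy1
      rw [e3, Finset.sum_filter]
      have e5 : (∑ a, if IsConj y a then χ a else 0) / p = k * χ y := by
        rw [div_eq_iff hp0]
        convert e4 using 1
        rw [hk]; push_cast; ring
      rw [e5]
      exact (isIntegral_algebraMap (x := (k : ℤ))).mul (char_isIntegral (irr_isCharacter hχ) y)
  refine dvd_of_isIntegral_div hp.ne_zero ?_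
  rw [← irr_deg_eq hχ, eq_neg_of_add_eq_zero_left e1, neg_div]
  exact e2.neg

theorem der_le_ker [Finite G] [Fact p.Prime] (K : Subgroup G) [K.Normal] (hK : IsPGroup p K)
    {χ : G → ℂ} (hχ : IsIrrCharacter G χ) (hd : ¬ p ∣ charDegree χ) : ⁅K, K⁆ ≤ charKer χ := by
  have := Fintype.ofFinite G
  have := Fintype.ofFinite K
  have hc := char_restrict (irr_isCharacter hχ) K
  have h1 : _root_.commutator K ≤ charKer (fun x : K => χ x) := by
    refine commutator_le_charKer_of_constituents (char_isClassFunction hc) fun θ hθ hne => ?_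
    have h1 := (Clifford.NormalEmb.sub K).clifford_one hχ hθ hne
    obtain ⟨e, he⟩ := inner_char_eq_nat hc (irr_isCharacter hθ)
    have h2 : charDegree χ =
        e * (((Clifford.NormalEmb.sub K).inertia θ).index * charDegree θ) := by
      apply deg_of_eq
      rw [h1, irr_deg_eq hθ]
      push_cast
      congr 1
    obtain ⟨n, hn⟩ := IsPGroup.iff_card.1 hK
    have h3 := irr_deg_dvd_card hθ
    rw [hn, Nat.dvd_prime_pow Fact.out] at h3
    obtain ⟨m, -, hm⟩ := h3
    rw [← deg_eq_one_iff (irr_isCharacter hθ), hm]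
    rcases m with _ | m
    · rfl
    · exact absurd (by rw [h2, hm, pow_succ]; exact ((dvd_mul_left p _).mul_left _).mul_left _) hd
  rw [← map_subtype_commutator, map_le_iff_le_comap]
  rwa [charKer_restrict (irr_isCharacter hχ)] at h1

theorem not_dvd_deg [Finite G] (K : Subgroup G) [K.Normal] (hK : ¬ p ∣ K.index)
    {χ : G → ℂ} (hχ : IsIrrCharacter G χ) (h : ⁅K, K⁆ ≤ charKer χ) : ¬ p ∣ charDegree χ := by
  obtain ⟨ψ, hψ, rfl⟩ := exists_irr_quotient hχ ⁅K, K⁆ h
  let π := QuotientGroup.mk' ⁅K, K⁆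
  have hs : Function.Surjective π := QuotientGroup.mk'_surjective _
  have : (K.map π).Normal := Normal.map inferInstance π hs
  have h1 := Clifford.irr_one_dvd_index_of_normal_comm (K.map π) (by
    rintro _ ⟨a, ha, rfl⟩ _ ⟨b, hb, rfl⟩
    rw [← commutatorElement_eq_one_iff_mul_comm, ← map_commutatorElement]
    exact (QuotientGroup.eq_one_iff _).2 (commutator_mem_commutator ha hb)) hψ (irr_deg_eq hψ)
  intro hd
  have e : charDegree (fun g : G => ψ g) = charDegree ψ := deg_comp ψ π
  rw [e] at hd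
  exact hK (hd.trans (h1.trans (index_map_dvd K hs)))

open Classical in
theorem sum_sq_ker [Finite G] (D : Subgroup G) [D.Normal] :
    ∑ ψ ∈ Finset.univ.filter (fun ψ : IrrCharacter G => D ≤ charKer (ψ : G → ℂ)),
      charDegree (ψ : G → ℂ) ^ 2 = D.index := by
  rw [sum_irr_filter_le_charKer D (fun ψ => charDegree ψ ^ 2), index, ← sum_deg_sq]
  exact Finset.sum_congr rfl fun ψ _ => by rw [← deg_comp ψ.1 (QuotientGroup.mk' D)]; rfl

end CF.Pdg
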