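import Cfsg.Agent.Pdg.B

/-! The sum of the squares of the degrees prime to `p`. -/

set_option autoImplicit false

namespace CF.Pdg

open Cfsg Subgroup CF.Char CF.BlockB.Ord

variable {G : Type*} [Group G] [Finite G] {p : ℕ}

open Classical in
/-- The sum of the squares of the degrees prime to `p`. -/
noncomputable def sq (p : ℕ) (G : Type*) [Group G] [Finite G] : ℕ :=
  ∑ χ ∈ Finset.univ.filter (fun χ : IrrCharacter G => ¬ p ∣ charDegree (χ : G → ℂ)),
    charDegree (χ : G → ℂ) ^ 2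

theorem ineq (hp : p.Prime) (H : Subgroup G) (hH : ¬ p ∣ H.index) (D : Subgroup H) [D.Normal]
    (hD : ∀ ψ, IsIrrCharacter H ψ → D ≤ charKer ψ → ¬ p ∣ charDegree ψ) :
    D.index ≤ sq p G ∧ (D.index = sq p G → ∀ ψ, IsIrrCharacter H ψ → D ≤ charKer ψ →
      ∃ χ, IsIrrCharacter G χ ∧ (fun h : H => χ h) = ψ) := by
  classical
  have := Fintype.ofFinite G
  have := Fintype.ofFinite H
  let X := Finset.univ.filter (fun χ : IrrCharacter G => ¬ p ∣ charDegree (χ : G → ℂ))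
  let Y := Finset.univ.filter (fun ψ : IrrCharacter H => D ≤ charKer (ψ : H → ℂ))
  have hf : ∀ ψ : IrrCharacter H, ∃ χ : IrrCharacter G, ψ ∈ Y →
      χ ∈ X ∧ classInner (fun h : H => (χ : G → ℂ) h) ψ ≠ 0 := by
    intro ψ
    by_cases h : ψ ∈ Y
    · obtain ⟨χ, h1, h2, h3⟩ := exists_over H hp hH ψ.2 (hD ψ ψ.2 (by simpa [Y] using h))
      exact ⟨⟨χ, h1⟩, fun _ => ⟨by simpa [X] using h2, h3⟩⟩
    · exact ⟨oneIrr G, fun h' => absurd h' h⟩
  choose f hf using hf
  have hr : ∀ χ : IrrCharacter G, charDegree (fun h : H => (χ : G → ℂ) h) = charDegree χ.1 :=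
    fun χ => deg_comp χ.1 H.subtype
  have h1 : ∀ ψ ∈ Y, charDegree (ψ : H → ℂ) ^ 2 ≤ charDegree (ψ : H → ℂ) * charDegree (f ψ).1 := by
    intro ψ h
    rw [pow_two]
    refine Nat.mul_le_mul_left _ ?_
    have := sum_deg_le (char_restrict (irr_isCharacter (f ψ).2) H) {ψ} (by simpa using (hf ψ h).2)
    rwa [Finset.sum_singleton, hr] at this
  have h2 : ∑ ψ ∈ Y, charDegree (ψ : H → ℂ) * charDegree (f ψ).1 ≤ sq p G := by
    rw [← Finset.sum_fiberwise_of_maps_to (t := X) (g := f) fun ψ h => (hf ψ h).1]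
    refine Finset.sum_le_sum fun χ _ => ?_
    have := sum_deg_le (char_restrict (irr_isCharacter χ.2) H) (Y.filter fun ψ => f ψ = χ) (by
      intro ψ h
      obtain ⟨h', e⟩ := Finset.mem_filter.1 h
      rw [← e]
      exact (hf ψ h').2)
    rw [hr] at this
    rw [pow_two]
    refine le_trans (le_of_eq ?_) (Nat.mul_le_mul_right _ this)
    rw [Finset.sum_mul]
    exact Finset.sum_congr rfl fun ψ h => by rw [(Finset.mem_filter.1 h).2]
  have h3 := Finset.sum_le_sum h1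
  rw [← sum_sq_ker D]
  refine ⟨h3.trans h2, fun e ψ hψ hk => ?_⟩
  have hY : (⟨ψ, hψ⟩ : IrrCharacter H) ∈ Y := by simpa [Y] using hk
  have h4 := (Finset.sum_eq_sum_iff_of_le h1).1 (le_antisymm h3 (h2.trans e.ge)) _ hY
  rw [pow_two] at h4
  have h5 := Nat.eq_of_mul_eq_mul_left (irr_deg_pos hψ) h4
  refine ⟨f ⟨ψ, hψ⟩, (f _).2, eq_of_inner_ne_zero_of_one_eq
    (char_restrict (irr_isCharacter (f _).2) H) hψ (hf _ hY).2 ?_⟩
  rw [irr_deg_eq hψ]
  change (f ⟨ψ, hψ⟩).1 1 = _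
  rw [irr_deg_eq (f _).2, ← h5]

theorem sq_le (H L : Subgroup G) [L.Normal] (hL : L ⊔ H = ⊤) (D : Subgroup H) [D.Normal]
    (h1 : ∀ χ, IsIrrCharacter G χ → ¬ p ∣ charDegree χ → L ≤ charKer χ)
    (h2 : ∀ ψ, IsIrrCharacter H ψ → ¬ p ∣ charDegree ψ → D ≤ charKer ψ) : sq p G ≤ D.index := by
  classical
  have hg : ∀ g : G, ∃ l ∈ L, ∃ h ∈ H, l * h = g := fun g => by
    have : g ∈ ((L ⊔ H : Subgroup G) : Set G) := by rw [hL]; trivial
    rw [normal_mul] at this
    exact this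
  have hi : ∀ χ : IrrCharacter G, ¬ p ∣ charDegree χ.1 → IsIrrCharacter H fun h : H => χ.1 h := by
    intro χ hd
    obtain ⟨ψ, hψ, e⟩ := exists_irr_quotient χ.2 L (h1 _ χ.2 hd)
    rw [e]
    refine irr_comp_of_surjective hψ ((QuotientGroup.mk' L).comp H.subtype) fun q => ?_
    obtain ⟨g, rfl⟩ := QuotientGroup.mk'_surjective L q
    obtain ⟨l, hl, h, hh, rfl⟩ := hg g
    refine ⟨⟨h, hh⟩, ?_⟩
    simp [(QuotientGroup.eq_one_iff l).2 hl]
  let r : IrrCharacter G → IrrCharacter H := fun χ =>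
    if h : ¬ p ∣ charDegree χ.1 then ⟨_, hi χ h⟩ else oneIrr H
  have hr : ∀ χ : IrrCharacter G, ¬ p ∣ charDegree χ.1 → (r χ).1 = fun h : H => χ.1 h :=
    fun χ h => by simp only [r, dif_pos h]
  have hd : ∀ χ : IrrCharacter G, ¬ p ∣ charDegree χ.1 → charDegree (r χ).1 = charDegree χ.1 :=
    fun χ h => by rw [hr χ h]; exact deg_comp χ.1 H.subtype
  rw [← sum_sq_ker D, sq]
  have inj : Set.InjOn r (Finset.univ.filter
      (fun χ : IrrCharacter G => ¬ p ∣ charDegree (χ : G → ℂ)) : Finset _) := by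
    intro a ha b hb e
    simp only [Finset.coe_filter, Finset.mem_univ, true_and, Set.mem_ofPred_eq] at ha hb
    have e1 := congrArg Subtype.val e
    rw [hr a ha, hr b hb] at e1
    ext g
    obtain ⟨l, hl, h, hh, rfl⟩ := hg g
    rw [h1 _ a.2 ha hl, h1 _ b.2 hb hl]
    exact congrFun e1 ⟨h, hh⟩
  refine le_trans (le_of_eq ?_) (Finset.sum_le_sum_of_subset (s := (Finset.univ.filter
      (fun χ : IrrCharacter G => ¬ p ∣ charDegree (χ : G → ℂ))).image r) ?_)
  · rw [Finset.sum_image inj]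
    refine Finset.sum_congr rfl fun χ h => ?_
    simp only [Finset.mem_filter, Finset.mem_univ, true_and] at h
    rw [hd χ h]
  · intro ψ hψ
    simp only [Finset.mem_image, Finset.mem_filter, Finset.mem_univ, true_and] at hψ ⊢
    obtain ⟨χ, h, rfl⟩ := hψ
    exact h2 _ (r χ).2 (by rwa [hd χ h])

/-- If the characters with `D` in the kernel extend, `D` is the trace of a normal subgroup. -/
theorem exists_normal (H : Subgroup G) (D : Subgroup H) [D.Normal]
    (h : ∀ ψ, IsIrrCharacter H ψ → D ≤ charKer ψ →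
      ∃ χ, IsIrrCharacter G χ ∧ (fun h : H => χ h) = ψ) :
    ∃ K : Subgroup G, K.Normal ∧ K ⊓ H = D.map H.subtype := by
  refine ⟨normalClosure (D.map H.subtype : Set G), inferInstance, le_antisymm ?_
    (le_inf le_normalClosure (map_subtype_le D))⟩
  rintro x ⟨hx, hxH⟩
  by_contra hn
  obtain ⟨ψ, hψ, h1, h2⟩ := exists_irr_le_charKer_not_mem D (g := ⟨x, hxH⟩)
    fun h => hn ⟨_, h, rfl⟩
  obtain ⟨χ, hχ, rfl⟩ := h ψ hψ h1
  rw [charKer_restrict (irr_isCharacter hχ)] at h1 h2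
  have := charKer_normal (irr_isClassFunction hχ)
  exact h2 (normalClosure_le_normal (N := charKer χ) (map_le_iff_le_comap.2 h1) hx)

theorem main [hp : Fact p.Prime] (P : Sylow p G) :
    Nat.card (normalizer ((P : Subgroup G) : Set G)) ≤ Nat.card (_root_.commutator P) * sq p G ∧
    (Nat.card (normalizer ((P : Subgroup G) : Set G)) = Nat.card (_root_.commutator P) * sq p G ↔
      ∃ K : Subgroup G, K.Normal ∧ K ⊓ normalizer ((P : Subgroup G) : Set G) = ⊥ ∧
        K ⊔ normalizer ((P : Subgroup G) : Set G) = ⊤) := by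
  set N := normalizer ((P : Subgroup G) : Set G) with hN
  have hPN : (P : Subgroup G) ≤ N := le_normalizer
  let Q : Subgroup N := (P : Subgroup G).subgroupOf N
  have hQn : Q.Normal := normal_in_normalizer
  have hQ : IsPGroup p Q := P.2.of_equiv (subgroupOfEquivOfLe hPN).symm
  have hi : (P : Subgroup G).relIndex N * N.index = (P : Subgroup G).index :=
    relIndex_mul_index hPN
  have hQi : ¬ p ∣ Q.index := fun h => P.not_dvd_index (hi ▸ h.mul_right _)
  have hNi : ¬ p ∣ N.index := fun h => P.not_dvd_index (hi ▸ h.mul_left _)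
  have hm : Q.map N.subtype = P := by rw [subgroupOf_map_subtype, inf_eq_left.2 hPN]
  have hm2 : ⁅Q, Q⁆.map N.subtype = ⁅(P : Subgroup G), (P : Subgroup G)⁆ := by
    rw [map_commutator, hm]
  have hc : Nat.card N = Nat.card (_root_.commutator P) * ⁅Q, Q⁆.index := by
    rw [← card_mul_index ⁅Q, Q⁆, ← card_map_of_injective (K := ⁅Q, Q⁆) N.subtype_injective, hm2,
      ← map_subtype_commutator, card_map_of_injective (P : Subgroup G).subtype_injective]
  obtain ⟨h1, h2⟩ := ineq hp.out N hNi ⁅Q, Q⁆ fun ψ hψ h => not_dvd_deg Q hQi hψ h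
  rw [hc]
  refine ⟨Nat.mul_le_mul_left _ h1, fun e => ?_, ?_⟩
  · have h3 := h2 (Nat.eq_of_mul_eq_mul_left Nat.card_pos e)
    obtain ⟨K, hK, eK⟩ := exists_normal N ⁅Q, Q⁆ h3
    obtain ⟨A, hA, eA⟩ := exists_normal N Q fun ψ hψ h =>
      h3 ψ hψ ((commutator_le_left Q Q).trans h)
    rw [hm2] at eK
    rw [hm] at eA
    exact comp P K A ((inf_le_inf_left K hPN).trans eK.le) (eK.ge.trans inf_le_left)
      (eA.ge.trans inf_le_left) eA.le
  · rintro ⟨L, hL, e1, e2⟩
    rw [le_antisymm h1 (sq_le N L e2 ⁅Q, Q⁆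
      (fun χ hχ h => le_ker hp.out L (fun x hx h1 => dvd_index P L e1 hx h1) hχ h)
      fun ψ hψ h => der_le_ker Q hQ hψ h)]

end CF.Pdg
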